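import Cfsg.Agent.H853.SR.DecJ
import Cfsg.Agent.H595.SR.OoddA
import Cfsg.Agent.H4.SR.HypE
import Cfsg.Agent.H164.SR.OddRows

/-!
# TEAM SR: the decomposition theorem for orthogonal spaces over fields of odd order, without hypotheses (helper853)
-/

set_option autoImplicit false

namespace Cfsg.Agent.H853.SR

open Polynomial Module QuadraticMap
open Cfsg.Agent.LieClassical.OrthCore Cfsg.Agent.H160.QSpin Cfsg.Agent.H160.QDisc Cfsg.Agent.H721.SR

universe u v

theorem hypA {F : Type u} [Field F] [Fintype F] [DecidableEq F] (h2 : (2 : F) ≠ 0) : HypA.{u, v} F := by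
  intro V _ _ _ _ Q g f k d hQ hg hk hd h s
  rcases h with ⟨v, hp, ht, -, h1, h3⟩ | ⟨v, w, hp, ht, hr⟩
  · exact Cfsg.Agent.H595.SR.T_cyclic h2 hQ hg ht hp hk h1 h3 hd s
  · exact Cfsg.Agent.H595.SR.T_pair h2 hQ hg ht hp hk hr hd s

/-- **SR-O4**: in odd dimension or dimension divisible by four every isometry is inverted by an isometric involution
of determinant and spinor sign one, if `-1` is a square, or `4 ∣ n` and the class is `-1`, or `n = 8, 9` -/
theorem dec' {F : Type u} [Field F] [Fintype F] [DecidableEq F] (h2 : (2 : F) ≠ 0) (V : Type v) [AddCommGroup V]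
    [Module F V] [Finite V] (Q : QuadraticForm F V)
    (hQ : Nondeg Q) (hn : Odd (finrank F V) ∨ 4 ∣ finrank F V)
    (hc : quadraticChar F (-1) = 1 ∨ (4 ∣ finrank F V ∧ dc Q = -1) ∨ finrank F V = 8 ∨ finrank F V = 9)
    (g : V ≃ₗ[F] V) (hg : g ∈ O Q) : Cfsg.Agent.H721.SR.T Q g 1 1 :=
  dec h2 (hypA h2) (Cfsg.Agent.H4.SR.hypE h2) (hypJT h2) (hypJU h2) V Q hQ hn hc g hg

/-- the decomposition theorem: `T 1 1`, or case B; always `T 1 s` for some `s` -/
theorem exists_T {F : Type u} [Field F] [Fintype F] [DecidableEq F] (h2 : (2 : F) ≠ 0) (V : Type v) [AddCommGroup V]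
    [Module F V] [Finite V] (Q : QuadraticForm F V)
    (hQ : Nondeg Q) (hn : Odd (finrank F V) ∨ 4 ∣ finrank F V) (g : V ≃ₗ[F] V) (hg : g ∈ O Q) :
    ∃ s : ℤˣ, Cfsg.Agent.H721.SR.T Q g 1 s := by
  let X : Tri.{u, v} F := ⟨V, Q, g, hQ, hg⟩
  rcases main h2 (jHyp (hypJT.{u, v} h2) (hypJU h2)) (exists_piece h2 (hypA h2) (Cfsg.Agent.H4.SR.hypE h2)) X hn with
    h | ⟨c, j, L, -, h⟩
  · exact ⟨1, h⟩
  · exact ⟨_, h.t h2 (jHyp (hypJT.{u, v} h2) (hypJU h2))⟩

/-- the form used by the rows -/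
theorem dec_all {F : Type u} [Field F] [Fintype F] [DecidableEq F] (h2 : (2 : F) ≠ 0) :
    Cfsg.Agent.H164.SRO.Dec F := by
  intro V _ _ _ _ Q hQ hn hc g hg
  obtain ⟨h, -, -⟩ := hg
  exact dec' h2 V Q hQ hn hc g h

end Cfsg.Agent.H853.SR
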